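import Cfsg.Agent.Glauberman.NormalSylow.Prep

/-!
# The correspondence over a stable character of a normal Sylow subgroup

`A` is a `p`-group acting on `T`, `N` a normal Sylow `p`-subgroup with an invariant character `θ`
stable in `T`, and `ι : S → T` has the elements fixed modulo `N` as image. Gallagher and the
Glauberman correspondence of `T ⧸ N` match the invariant characters of `T` over `θ` with the
characters of `S` over `θ`.
-/

set_option autoImplicit false

namespace CfsgLib.Glauberman.NormalSylow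

open Cfsg MulAction CfsgLib.Glauberman

universe u v

/-- The determinant of a pulled-back irreducible character. -/
theorem detOrder_irrPull {G : Type u} [Group G] [Finite G] (σ : G ≃* G) (χ : IrrCharacter G) :
    detOrder (irrPull σ χ : G → ℂ) = detOrder (χ : G → ℂ) := by
  obtain ⟨n, ρ, hρ, hρχ⟩ := χ.2
  have h : detChar (irrPull σ χ : G → ℂ) = fun g => detChar (χ : G → ℂ) (σ g) := by
    funext g
    rw [CfsgLib.Chars.Induced.detChar_eq_of_rep χ.2 ρ hρχ,
      CfsgLib.Chars.Induced.detChar_eq_of_rep (irrPull σ χ).2 (ρ.comp σ.toMonoidHom)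
        (funext fun x => congrFun hρχ (σ x))]
    rfl
  unfold Cfsg.detOrder
  rw [h]
  let F : (G → ℂ) →* (G → ℂ) :=
    { toFun := fun f g => f (σ g), map_one' := rfl, map_mul' := fun _ _ => rfl }
  exact orderOf_injective F (fun f f' hf => funext fun g => by
    simpa [F] using congrFun hf (σ.symm g)) (detChar (χ : G → ℂ))

theorem natCast_eq_sign_of_modEq {p m : ℕ}
    (h : (m : ℤ) ≡ 1 [ZMOD p] ∨ (m : ℤ) ≡ -1 [ZMOD p]) : (m : ZMod p) = 1 ∨ (m : ZMod p) = -1 := by
  rcases h with h | h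
  · exact Or.inl (by simpa using (ZMod.intCast_eq_intCast_iff _ _ _).2 h)
  · exact Or.inr (by simpa using (ZMod.intCast_eq_intCast_iff _ _ _).2 h)

variable {T : Type u} [Group T] [Fintype T] {S : Type u} [Group S] [Fintype S]
  {A : Type v} [Group A] [MulDistribMulAction A T] {p : ℕ} [Fact p.Prime]

/-- The correspondence over a stable invariant character `θ`. -/
theorem lift (hA : IsPGroup p A) (N : Subgroup T) [N.Normal] [Fintype N]
    (hNinv : ∀ (a : A), ∀ n ∈ N, a • n ∈ N) (hN : IsPGroup p N) (hidx : ¬ p ∣ N.index)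
    (ι : S →* T) (hι : Function.Injective ι)
    (hfix : ∀ t : T, (∃ s, ι s = t) ↔ ∀ a : A, a • t * t⁻¹ ∈ N)
    (j : N →* S) (hj : ∀ n : N, ι (j n) = n) (θ : IrrCharacter N)
    (hθT : ∀ x : T, CfsgLib.Chars.Induced.conjFun N x (θ : N → ℂ) = θ)
    (hθA : ∀ (a : A) (n n' : N), (n' : T) = a • (n : T) → (θ : N → ℂ) n' = (θ : N → ℂ) n) :
    (∀ η : IrrCharacter S, mult j η θ ≠ 0 →
      ∀ (a : A) (s s' : S), ι s' = a • ι s → (η : S → ℂ) s' = (η : S → ℂ) s) ∧
    (∀ ψ : IrrCharacter T, (∀ (a : A) t, (ψ : T → ℂ) (a • t) = (ψ : T → ℂ) t) →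
      mult N.subtype ψ θ ≠ 0 →
      ∃ η : IrrCharacter S, mult j η θ ≠ 0 ∧
        ((mult ι ψ η : ZMod p) = 1 ∨ (mult ι ψ η : ZMod p) = -1) ∧
        ∀ η' : IrrCharacter S, mult j η' θ ≠ 0 → η' ≠ η → p ∣ mult ι ψ η') ∧
    (∀ ψ ψ' : IrrCharacter T, (∀ (a : A) t, (ψ : T → ℂ) (a • t) = (ψ : T → ℂ) t) →
      (∀ (a : A) t, (ψ' : T → ℂ) (a • t) = (ψ' : T → ℂ) t) →
      mult N.subtype ψ θ ≠ 0 → mult N.subtype ψ' θ ≠ 0 →
      ∀ η : IrrCharacter S, mult j η θ ≠ 0 → ¬ p ∣ mult ι ψ η → ¬ p ∣ mult ι ψ' η → ψ = ψ') ∧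
    (∀ η : IrrCharacter S, mult j η θ ≠ 0 →
      ∃ ψ : IrrCharacter T, (∀ (a : A) t, (ψ : T → ℂ) (a • t) = (ψ : T → ℂ) t) ∧
        mult N.subtype ψ θ ≠ 0 ∧ ¬ p ∣ mult ι ψ η) := by
  classical
  have hθinv : ∀ x : T, CfsgLib.Chars.Induced.conjFun N x (θ : N → ℂ) = θ := hθT
  have hp := (Fact.out : p.Prime)
  -- the canonical extension
  obtain ⟨a₀, ha₀⟩ := hN.exists_card_eq
  have hcopN : (p ^ a₀).Coprime N.index := (hp.coprime_iff_not_dvd.2 hidx).pow_left a₀
  obtain ⟨θh, hθh, hdet, huniq⟩ := CfsgLib.Chars.Induced.exists_canonical_extension θ hθinv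
    (d := Cfsg.charDegree (θ : N → ℂ)) (CfsgLib.Chars.coe_charDegree θ).symm
    ((((ha₀ ▸ hcopN : (Nat.card N).Coprime N.index).coprime_dvd_left
      (CfsgLib.Chars.Induced.detOrder_dvd_card (CfsgLib.Chars.isCharacter_coe θ))).mul_left
      ((ha₀ ▸ hcopN : (Nat.card N).Coprime N.index).coprime_dvd_left
      (CfsgLib.Chars.charDegree_dvd_card θ))).symm)
  have hθhA : ∀ (a : A) (t : T), (θh : T → ℂ) (a • t) = (θh : T → ℂ) t := by
    intro a t
    have h1 := huniq (irrPull (MulDistribMulAction.toMulAut A T a) θh) (fun n => by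
      rw [irrPull_apply]
      have hm : a • (n : T) ∈ N := hNinv a _ n.2
      show (θh : T → ℂ) ((⟨a • (n : T), hm⟩ : N) : T) = _
      rw [hθh]
      exact hθA a n ⟨_, hm⟩ rfl) (by
      rw [detOrder_irrPull, hdet]
      exact ((ha₀ ▸ hcopN : (Nat.card N).Coprime N.index).coprime_dvd_left
        (CfsgLib.Chars.Induced.detOrder_dvd_card (CfsgLib.Chars.isCharacter_coe θ))).symm)
    exact congrFun (congrArg Subtype.val h1) t
  -- the action on the quotient
  letI : MulDistribMulAction A (T ⧸ N) :=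
    { smul := fun a => QuotientGroup.map N N (MulDistribMulAction.toMonoidHom T a) (hNinv a)
      one_smul := fun q => by
        obtain ⟨g, rfl⟩ := QuotientGroup.mk_surjective q
        exact congrArg QuotientGroup.mk (one_smul A g)
      mul_smul := fun a b q => by
        obtain ⟨g, rfl⟩ := QuotientGroup.mk_surjective q
        exact congrArg QuotientGroup.mk (mul_smul a b g)
      smul_mul := fun a => map_mul (QuotientGroup.map N N (MulDistribMulAction.toMonoidHom T a) (hNinv a))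
      smul_one := fun a => map_one (QuotientGroup.map N N (MulDistribMulAction.toMonoidHom T a) (hNinv a)) }
  set NS : Subgroup S := N.comap ι with hNS
  haveI : NS.Normal := inferInstance
  haveI := Fintype.ofFinite NS
  haveI := Fintype.ofFinite (S ⧸ NS)
  haveI := Fintype.ofFinite (T ⧸ N)
  let e : S ⧸ NS →* T ⧸ N := QuotientGroup.map NS N ι le_rfl
  have he : Function.Injective e := by
    rw [injective_iff_map_eq_one]
    intro q hq
    obtain ⟨s, rfl⟩ := QuotientGroup.mk_surjective q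
    exact (QuotientGroup.eq_one_iff s).2 ((QuotientGroup.eq_one_iff (ι s)).1 hq)
  have hefix : ∀ q : T ⧸ N, q ∈ fixedPoints A (T ⧸ N) ↔ ∃ c, e c = q := by
    intro q
    obtain ⟨t, rfl⟩ := QuotientGroup.mk_surjective q
    constructor
    · intro h
      obtain ⟨s, rfl⟩ := (hfix t).2 fun a => by
        have h1 : ((a • t : T) : T ⧸ N) = (t : T ⧸ N) := h a
        rw [← div_eq_mul_inv]
        exact QuotientGroup.eq_iff_div_mem.1 h1
      exact ⟨(s : S ⧸ NS), rfl⟩
    · rintro ⟨c, hc⟩ a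
      obtain ⟨s, rfl⟩ := QuotientGroup.mk_surjective c
      rw [← hc]
      show ((a • ι s : T) : T ⧸ N) = ((ι s : T) : T ⧸ N)
      rw [QuotientGroup.eq_iff_div_mem, div_eq_mul_inv]
      exact (hfix (ι s)).1 ⟨s, rfl⟩ a
  have hpT : ¬ p ∣ Nat.card (T ⧸ N) := by rwa [← Subgroup.index_eq_card]
  obtain ⟨g1, g2, g3⟩ := CfsgLib.Glauberman.glauberman hA hpT e he hefix
  -- the extension on `S`
  let w : N ≃* NS := MulEquiv.ofBijective
    (j.codRestrict NS fun n => by simp [hNS, hj n]) ⟨fun a b hab => by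
      have := congrArg (fun z : NS => ι (z : S)) hab
      simpa [hj] using this, fun z => ⟨⟨ι z, z.2⟩, Subtype.ext (hι (by simp [hj]))⟩⟩
  let θS : IrrCharacter NS := irrPull w.symm θ
  let θhS : IrrCharacter S := ⟨fun s => (θh : T → ℂ) (ι s),
    isIrrCharacter_of_restrict j (CfsgLib.Chars.isCharacter_comp (CfsgLib.Chars.isCharacter_coe θh) ι) θ
      (fun n => by simp [hj, hθh])⟩
  have hθhS : ∀ n : NS, (θhS : S → ℂ) n = (θS : NS → ℂ) n := by
    intro n
    obtain ⟨n, rfl⟩ := w.surjective n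
    simp only [θhS, θS, irrPull_apply, MulEquiv.symm_apply_apply]
    show (θh : T → ℂ) (ι (j n)) = (θ : N → ℂ) n
    rw [hj, hθh]
  have hover : ∀ η : IrrCharacter S, mult j η θ ≠ 0 →
      CfsgLib.Chars.Induced.mult (fun n : NS => (η : S → ℂ) n) θS ≠ 0 := by
    intro η hη
    have h1 := mult_eq_induced NS.subtype η θS
    simp only [Subgroup.coe_subtype] at h1
    rw [h1, ← mult_comp_equiv NS.subtype w η θS]
    convert hη using 2
    · rfl
    · exact Subtype.ext (funext fun n => by simp [θS])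
  let mkψ : IrrCharacter (T ⧸ N) → IrrCharacter T := fun β =>
    ⟨_, CfsgLib.Chars.Induced.gallagher_isIrrCharacter θh θ hθh β⟩
  let mkη : IrrCharacter (S ⧸ NS) → IrrCharacter S := fun β =>
    ⟨_, CfsgLib.Chars.Induced.gallagher_isIrrCharacter θhS θS hθhS β⟩
  have hψA : ∀ β : IrrCharacter (T ⧸ N),
      (∀ (a : A) t, (mkψ β : T → ℂ) (a • t) = (mkψ β : T → ℂ) t) ↔ β ∈ fixedPoints A (IrrCharacter (T ⧸ N)) := by
    intro β
    rw [mem_fixed_iff]
    constructor
    · intro h a q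
      have h1 := CfsgLib.Chars.Induced.gallagher_injective θh θ hθh
        (irrPull (MulDistribMulAction.toMulAut A (T ⧸ N) a) β) β (fun t => by
          rw [irrPull_apply]
          have h2 := h a t
          show (θh : T → ℂ) t * (β : T ⧸ N → ℂ) ((a • t : T) : T ⧸ N) = _
          change (θh : T → ℂ) (a • t) * (β : T ⧸ N → ℂ) ((a • t : T) : T ⧸ N) = _ at h2
          rwa [hθhA] at h2)
      exact congrFun (congrArg Subtype.val h1) q
    · intro h a t
      show (θh : T → ℂ) (a • t) * (β : T ⧸ N → ℂ) ((a • t : T) : T ⧸ N) = _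
      rw [hθhA]
      exact congrArg _ (h a (t : T ⧸ N))
  have hψover : ∀ β : IrrCharacter (T ⧸ N), mult N.subtype (mkψ β) θ ≠ 0 := by
    intro β h0
    have h1 := classInner_eq_mult N.subtype (mkψ β) θ
    rw [h0, Nat.cast_zero] at h1
    have h2 : (fun n : N => (mkψ β : T → ℂ) (N.subtype n)) =
        (β : T ⧸ N → ℂ) 1 • (θ : N → ℂ) := funext fun n => by
      show (θh : T → ℂ) (n : T) * (β : T ⧸ N → ℂ) (((n : T)) : T ⧸ N) = _
      rw [CfsgLib.Chars.Induced.gallagher_restrict, hθh, Pi.smul_apply, smul_eq_mul]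
    rw [h2, CfsgLib.Chars.classInner_smul_left, CfsgLib.Chars.Induced.classInner_irr_self, mul_one] at h1
    exact CfsgLib.Chars.map_one_ne_zero β h1
  have hexψ : ∀ ψ : IrrCharacter T, mult N.subtype ψ θ ≠ 0 → ∃ β, mkψ β = ψ := by
    intro ψ hψ
    have h1 := mult_eq_induced N.subtype ψ θ
    simp only [Subgroup.coe_subtype] at h1
    obtain ⟨β, hβ⟩ := CfsgLib.Chars.Induced.gallagher_exists θh θ hθh ψ (by rwa [h1])
    exact ⟨β, Subtype.ext hβ.symm⟩
  have hexη : ∀ η : IrrCharacter S, mult j η θ ≠ 0 → ∃ β, mkη β = η := by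
    intro η hη
    obtain ⟨β, hβ⟩ := CfsgLib.Chars.Induced.gallagher_exists θhS θS hθhS η (hover η hη)
    exact ⟨β, Subtype.ext hβ.symm⟩
  have hηover : ∀ β : IrrCharacter (S ⧸ NS), mult j (mkη β) θ ≠ 0 := by
    intro β h0
    have h1 := classInner_eq_mult j (mkη β) θ
    rw [h0, Nat.cast_zero] at h1
    have h2 : (fun n : N => (mkη β : S → ℂ) (j n)) = (β : S ⧸ NS → ℂ) 1 • (θ : N → ℂ) := by
      funext n
      have hn : j n ∈ NS := by simp [hNS, hj n]
      show (θh : T → ℂ) (ι (j n)) * _ = _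
      rw [hj, (QuotientGroup.eq_one_iff (j n)).2 hn, hθh, Pi.smul_apply, smul_eq_mul, mul_comm]
    rw [h2, CfsgLib.Chars.classInner_smul_left, CfsgLib.Chars.Induced.classInner_irr_self, mul_one] at h1
    exact CfsgLib.Chars.map_one_ne_zero β h1
  have hmult : ∀ (β : IrrCharacter (T ⧸ N)) (β' : IrrCharacter (S ⧸ NS)),
      mult ι (mkψ β) (mkη β') = mult e β β' := by
    intro β β'
    apply mult_eq_of_classInner_eq
    have h1 : (fun s : S => (mkψ β : T → ℂ) (ι s)) =
        ∑ γ : IrrCharacter (S ⧸ NS), (mult e β γ : ℂ) • (mkη γ : S → ℂ) := by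
      funext s
      show (θh : T → ℂ) (ι s) * (β : T ⧸ N → ℂ) (e (s : S ⧸ NS)) = _
      rw [restrict_eq_sum e β, Finset.mul_sum, Finset.sum_apply]
      refine Finset.sum_congr rfl fun γ _ => ?_
      show _ = (mult e β γ : ℂ) * ((θh : T → ℂ) (ι s) * (γ : S ⧸ NS → ℂ) (s : S ⧸ NS))
      ring
    rw [h1, CfsgLib.Chars.classInner_sum_left]
    simp only [CfsgLib.Chars.classInner_smul_left]
    rw [Finset.sum_eq_single β']
    · rw [CfsgLib.Chars.Induced.classInner_irr_self, mul_one]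
    · intro γ _ hne
      rw [show classInner (mkη γ : S → ℂ) (mkη β' : S → ℂ) = _ from
        CfsgLib.Chars.Induced.gallagher_inner θhS θS hθhS γ β', if_neg hne, mul_zero]
    · exact fun h => absurd (Finset.mem_univ _) h
  refine ⟨fun η hη a s s' hs => ?_, fun ψ hA' hψ => ?_, fun ψ ψ' hA₁ hA₂ hψ hψ' η hη h h' => ?_,
    fun η hη => ?_⟩
  · obtain ⟨β, rfl⟩ := hexη η hη
    have h1 : (s' : S ⧸ NS) = (s : S ⧸ NS) := by
      rw [QuotientGroup.eq_iff_div_mem, hNS, Subgroup.mem_comap, map_div, hs, div_eq_mul_inv]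
      exact (hfix (ι s)).1 ⟨s, rfl⟩ a
    show (θh : T → ℂ) (ι s') * (β : S ⧸ NS → ℂ) (s' : S ⧸ NS) = (θh : T → ℂ) (ι s) * _
    rw [hs, hθhA, h1]
  · obtain ⟨β, rfl⟩ := hexψ ψ hψ
    obtain ⟨β', -, hu, hs⟩ := g1 β ((hψA β).1 hA')
    refine ⟨mkη β', hηover β', by rw [hmult]; exact natCast_eq_sign_of_modEq hs, fun η' hη' hne => ?_⟩
    obtain ⟨γ, rfl⟩ := hexη η' hη'
    rw [hmult]
    by_contra hd
    exact hne (by rw [hu γ hd])
  · obtain ⟨β, rfl⟩ := hexψ ψ hψ
    obtain ⟨β₂, rfl⟩ := hexψ ψ' hψ'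
    obtain ⟨γ, rfl⟩ := hexη η hη
    rw [hmult] at h h'
    rw [g2 β ((hψA β).1 hA₁) β₂ ((hψA β₂).1 hA₂) γ h h']
  · obtain ⟨γ, rfl⟩ := hexη η hη
    obtain ⟨β, hβ, hne⟩ := g3 γ
    exact ⟨mkψ β, (hψA β).2 hβ, hψover β, by rwa [hmult]⟩

end CfsgLib.Glauberman.NormalSylow
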