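import Cfsg.Agent.Glauberman.NormalSylow.Lift

/-!
# The correspondence relative to a normal Sylow subgroup

`A` is a `p`-group acting on a group `K` with a normal Sylow `p`-subgroup `Q`, and `C` consists of the
elements fixed modulo `Q`. Every invariant irreducible character of `K` has exactly one invariant
constituent on `C` of multiplicity prime to `p`; it is `±1 (mod p)`, and this is a bijection.
-/

set_option autoImplicit false

namespace CfsgLib.Glauberman.NormalSylow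

open Cfsg MulAction CfsgLib.Glauberman

universe u v

variable {K : Type u} [Group K] [Fintype K] {A : Type v} [Group A] [MulDistribMulAction A K]
  {p : ℕ} [Fact p.Prime]

/-- `C` has invariant action. -/
theorem fixedMod_smul_mem {Q C : Subgroup K} [Q.Normal]
    (hC : ∀ k, k ∈ C ↔ ∀ a : A, a • k * k⁻¹ ∈ Q) (hQC : Q ≤ C) (a : A) {k : K} (hk : k ∈ C) :
    a • k ∈ C := by
  rw [show a • k = (a • k * k⁻¹) * k by group]
  exact mul_mem (hQC ((hC k).1 hk a)) hk

/-- **The correspondence relative to a normal Sylow `p`-subgroup.** -/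
theorem correspondence_main (hA : IsPGroup p A) (Q C : Subgroup K) [Q.Normal] [Fintype Q] [Fintype C]
    (hQinv : ∀ (a : A), ∀ q ∈ Q, a • q ∈ Q) (hQ : IsPGroup p Q) (hidx : ¬ p ∣ Q.index)
    (hC : ∀ k, k ∈ C ↔ ∀ a : A, a • k * k⁻¹ ∈ Q) :
    (∀ χ : IrrCharacter K, (∀ (a : A) k, (χ : K → ℂ) (a • k) = (χ : K → ℂ) k) →
      ∃ ξ : IrrCharacter C,
        (∀ (a : A) (c c' : C), (c' : K) = a • (c : K) → (ξ : C → ℂ) c' = (ξ : C → ℂ) c) ∧
        ((mult C.subtype χ ξ : ZMod p) = 1 ∨ (mult C.subtype χ ξ : ZMod p) = -1) ∧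
        ((Cfsg.charDegree (ξ : C → ℂ) : ZMod p) = (Cfsg.charDegree (χ : K → ℂ) : ZMod p) ∨
          (Cfsg.charDegree (ξ : C → ℂ) : ZMod p) = -(Cfsg.charDegree (χ : K → ℂ) : ZMod p)) ∧
        ∀ ξ' : IrrCharacter C,
          (∀ (a : A) (c c' : C), (c' : K) = a • (c : K) → (ξ' : C → ℂ) c' = (ξ' : C → ℂ) c) →
          ξ' ≠ ξ → p ∣ mult C.subtype χ ξ') ∧
    (∀ χ χ' : IrrCharacter K, (∀ (a : A) k, (χ : K → ℂ) (a • k) = (χ : K → ℂ) k) →
      (∀ (a : A) k, (χ' : K → ℂ) (a • k) = (χ' : K → ℂ) k) → ∀ ξ : IrrCharacter C,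
      (∀ (a : A) (c c' : C), (c' : K) = a • (c : K) → (ξ : C → ℂ) c' = (ξ : C → ℂ) c) →
      ¬ p ∣ mult C.subtype χ ξ → ¬ p ∣ mult C.subtype χ' ξ → χ = χ') ∧
    (∀ ξ : IrrCharacter C,
      (∀ (a : A) (c c' : C), (c' : K) = a • (c : K) → (ξ : C → ℂ) c' = (ξ : C → ℂ) c) →
      ∃ χ : IrrCharacter K, (∀ (a : A) k, (χ : K → ℂ) (a • k) = (χ : K → ℂ) k) ∧
        ¬ p ∣ mult C.subtype χ ξ) := by
  classical
  have hp := (Fact.out : p.Prime)
  have hQC : Q ≤ C := fun q hq => (hC q).2 fun a => mul_mem (hQinv a q hq) (inv_mem hq)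
  letI := subAction C fun a c hc => fixedMod_smul_mem hC hQC a hc
  set QC : Subgroup C := Q.subgroupOf C with hQCdef
  haveI : QC.Normal := inferInstance
  haveI := Fintype.ofFinite QC
  let u : Q ≃* QC := (Subgroup.subgroupOfEquivOfLe hQC).symm
  let iC : Q →* C := Subgroup.inclusion hQC
  have hiC : iC = QC.subtype.comp u.toMonoidHom := MonoidHom.ext fun q => Subtype.ext rfl
  have hQCidx : ¬ p ∣ QC.index := fun h => hidx (h.trans (Subgroup.relIndex_dvd_index_of_normal Q C))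
  have hQCinv : ∀ (a : A), ∀ n ∈ QC, a • n ∈ QC := fun a n hn => hQinv a _ hn
  -- transfer of characters of `Q`
  have htr : ∀ (ξ : IrrCharacter C) (θ : IrrCharacter Q),
      mult iC ξ θ = mult QC.subtype ξ (irrPull u.symm θ) := by
    intro ξ θ
    rw [hiC, ← mult_comp_equiv QC.subtype u ξ (irrPull u.symm θ)]
    congr 1
  -- invariant constituents below a character of `C`
  have hbelow : ∀ ξ : IrrCharacter C,
      (∀ (a : A) (c c' : C), (c' : K) = a • (c : K) → (ξ : C → ℂ) c' = (ξ : C → ℂ) c) →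
      ∃ θ : IrrCharacter Q, mult iC ξ θ ≠ 0 ∧
        ∀ (a : A) (n n' : Q), (n' : K) = a • (n : K) → (θ : Q → ℂ) n' = (θ : Q → ℂ) n := by
    intro ξ hξ
    obtain ⟨θ', hθ', hinv⟩ := exists_invariant_below (N := QC) hA hQCinv hQCidx ξ
      (fun a c => hξ a c _ rfl)
    refine ⟨irrPull u θ', ?_, fun a n n' hn => hinv a _ _ (Subtype.ext hn)⟩
    rw [htr]
    convert hθ' using 2
    exact Subtype.ext (funext fun q => by simp)
  -- conjugation by elements of `C`
  have hconjC : ∀ (ξ : IrrCharacter C) (θ : IrrCharacter Q) (c : K), c ∈ C →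
      mult iC ξ (CfsgLib.Chars.Induced.conjIrr c θ) = mult iC ξ θ := by
    intro ξ θ c hc
    rw [htr, htr, ← mult_conjIrr ξ (⟨c, hc⟩ : C) (irrPull u.symm θ)]
    congr 1
  have hQK : Q.subtype = C.subtype.comp iC := MonoidHom.ext fun _ => rfl
  -- constituents on `C` of `χ` lie over constituents on `Q`
  have hund : ∀ (χ : IrrCharacter K) (ξ : IrrCharacter C) (θ : IrrCharacter Q),
      mult C.subtype χ ξ ≠ 0 → mult iC ξ θ ≠ 0 → mult Q.subtype χ θ ≠ 0 := by
    intro χ ξ θ h1 h2 h0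
    rw [hQK, mult_comp, Finset.sum_eq_zero_iff] at h0
    exact Nat.mul_ne_zero_iff.2 ⟨h1, h2⟩ (h0 ξ (Finset.mem_univ _))
  -- every invariant constituent of a character over an invariant `θ` is over `θ`
  have hover : ∀ (χ : IrrCharacter K) (ξ : IrrCharacter C) (θ : IrrCharacter Q),
      (∀ (a : A) (n n' : Q), (n' : K) = a • (n : K) → (θ : Q → ℂ) n' = (θ : Q → ℂ) n) →
      (∀ (a : A) (c c' : C), (c' : K) = a • (c : K) → (ξ : C → ℂ) c' = (ξ : C → ℂ) c) →
      mult Q.subtype χ θ ≠ 0 → mult C.subtype χ ξ ≠ 0 → mult iC ξ θ ≠ 0 := by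
    intro χ ξ θ hθ hξ h1 h2
    obtain ⟨θ', hθ', hinv'⟩ := hbelow ξ hξ
    obtain ⟨x, hx⟩ := mem_conjOrbit χ θ θ' h1 (hund χ ξ θ' h2 hθ')
    obtain ⟨c, hc, hcθ⟩ := exists_fixed_conj hA hQinv hidx θ θ' hθ hinv' hx
    rwa [← hcθ, hconjC ξ θ c ((hC c).2 hc)] at hθ'
  -- the local picture over `θ`
  have hlocal : ∀ θ : IrrCharacter Q,
      (∀ (a : A) (n n' : Q), (n' : K) = a • (n : K) → (θ : Q → ℂ) n' = (θ : Q → ℂ) n) →
      (∀ χ : IrrCharacter K, (∀ (a : A) k, (χ : K → ℂ) (a • k) = (χ : K → ℂ) k) →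
        mult Q.subtype χ θ ≠ 0 → ∃ ξ : IrrCharacter C,
          (∀ (a : A) (c c' : C), (c' : K) = a • (c : K) → (ξ : C → ℂ) c' = (ξ : C → ℂ) c) ∧
          ((mult C.subtype χ ξ : ZMod p) = 1 ∨ (mult C.subtype χ ξ : ZMod p) = -1) ∧
          ∀ ξ' : IrrCharacter C, mult iC ξ' θ ≠ 0 → ξ' ≠ ξ → p ∣ mult C.subtype χ ξ') ∧
      (∀ χ χ' : IrrCharacter K, (∀ (a : A) k, (χ : K → ℂ) (a • k) = (χ : K → ℂ) k) →
        (∀ (a : A) k, (χ' : K → ℂ) (a • k) = (χ' : K → ℂ) k) →
        mult Q.subtype χ θ ≠ 0 → mult Q.subtype χ' θ ≠ 0 → ∀ ξ : IrrCharacter C, mult iC ξ θ ≠ 0 →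
        ¬ p ∣ mult C.subtype χ ξ → ¬ p ∣ mult C.subtype χ' ξ → χ = χ') ∧
      (∀ ξ : IrrCharacter C, mult iC ξ θ ≠ 0 →
        ∃ χ : IrrCharacter K, (∀ (a : A) k, (χ : K → ℂ) (a • k) = (χ : K → ℂ) k) ∧
          ¬ p ∣ mult C.subtype χ ξ) := by
    intro θ hθ
    set T := CfsgLib.Chars.Induced.inertia Q (θ : Q → ℂ) with hT
    have hQT : Q ≤ T := CfsgLib.Chars.Induced.le_inertia
      (CfsgLib.Chars.isClassFunction_of_isCharacter (CfsgLib.Chars.isCharacter_coe θ))
    have hTinv : ∀ (a : A), ∀ t ∈ T, a • t ∈ T := by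
      intro a t ht
      rw [hT, CfsgLib.Chars.Induced.mem_inertia_iff_forall] at ht ⊢
      intro n n' hn
      let m : Q := ⟨a⁻¹ • (n : K), hQinv _ _ n.2⟩
      let m' : Q := ⟨a⁻¹ • (n' : K), hQinv _ _ n'.2⟩
      rw [← hθ a⁻¹ n' m' rfl, ← hθ a⁻¹ n m rfl]
      refine ht m m' ?_
      simp [m, m', hn, smul_mul', smul_inv']
    letI := subAction T hTinv
    haveI := Fintype.ofFinite T
    set N : Subgroup T := Q.subgroupOf T with hNdef
    haveI : N.Normal := inferInstance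
    haveI := Fintype.ofFinite N
    let v : Q ≃* N := (Subgroup.subgroupOfEquivOfLe hQT).symm
    have hiT : Subgroup.inclusion hQT = N.subtype.comp v.toMonoidHom :=
      MonoidHom.ext fun q => Subtype.ext rfl
    have htrT : ∀ ψ : IrrCharacter T,
        mult (Subgroup.inclusion hQT) ψ θ = mult N.subtype ψ (irrPull v.symm θ) := by
      intro ψ
      rw [hiT, ← mult_comp_equiv N.subtype v ψ (irrPull v.symm θ)]
      congr 1
    -- the subgroup of `C`
    set TC : Subgroup C := T.subgroupOf C with hTC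
    haveI := Fintype.ofFinite TC
    let ι : TC →* T :=
      { toFun := fun s => ⟨((s : C) : K), Subgroup.mem_subgroupOf.1 s.2⟩
        map_one' := rfl
        map_mul' := fun _ _ => rfl }
    have hι : Function.Injective ι := fun a b h =>
      Subtype.ext (Subtype.ext (congrArg (fun t : T => (t : K)) h))
    have hfix : ∀ t : T, (∃ s, ι s = t) ↔ ∀ a : A, a • t * t⁻¹ ∈ N := by
      intro t
      refine ⟨?_, fun h => ⟨⟨⟨t, (hC _).2 fun a => Subgroup.mem_subgroupOf.1 (h a)⟩, t.2⟩, rfl⟩⟩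
      rintro ⟨s, rfl⟩ a
      exact (hC _).1 (s : C).2 a
    let j : N →* TC :=
      { toFun := fun n => ⟨⟨((n : T) : K), hQC n.2⟩, (n : T).2⟩
        map_one' := rfl
        map_mul' := fun _ _ => rfl }
    have hθ' : ∀ (a : A) (n n' : N), (n' : T) = a • (n : T) →
        (irrPull v.symm θ : N → ℂ) n' = (irrPull v.symm θ : N → ℂ) n :=
      fun a n n' hn => hθ a _ _ (congrArg (fun t : T => (t : K)) hn)
    have hθT : ∀ x : T, CfsgLib.Chars.Induced.conjFun N x (irrPull v.symm θ : N → ℂ) =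
        (irrPull v.symm θ : N → ℂ) := by
      intro x
      funext n
      rw [CfsgLib.Chars.Induced.conjFun_apply, irrPull_apply, irrPull_apply]
      have hx : (x : K) ∈ CfsgLib.Chars.Induced.inertia Q (θ : Q → ℂ) := x.2
      rw [CfsgLib.Chars.Induced.mem_inertia_iff_forall] at hx
      refine (hx _ _ ?_).symm
      show ((n : T) : K) = (x : K) * (((x⁻¹ * (n : T) * x : T)) : K) * (x : K)⁻¹
      simp [mul_assoc]
    have hNp : IsPGroup p N := hQ.of_equiv v
    have hNidx : ¬ p ∣ N.index := fun h => hidx (h.trans (Subgroup.relIndex_dvd_index_of_normal Q T))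
    obtain ⟨l1, l2, l3, l4⟩ := lift hA N (fun a n hn => hQinv a _ hn) hNp hNidx ι hι hfix j
      (fun n => rfl) (irrPull v.symm θ) hθT hθ'
    -- inertia in `C`
    have hTC' : TC = CfsgLib.Chars.Induced.inertia QC (irrPull u.symm θ : QC → ℂ) := by
      ext c
      rw [hTC, Subgroup.mem_subgroupOf, hT, CfsgLib.Chars.Induced.mem_inertia_iff_forall,
        CfsgLib.Chars.Induced.mem_inertia_iff_forall]
      constructor
      · intro h n n' hn
        exact h _ _ (congrArg (fun z : C => (z : K)) hn)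
      · intro h n n' hn
        have h1 := h (u n) (u n') (Subtype.ext hn)
        simpa using h1
    have hQCT : QC ≤ TC := fun c hc => hQT hc
    have hjθ : ∀ η : IrrCharacter TC,
        mult (Subgroup.inclusion hQCT) η (irrPull u.symm θ) = mult j η (irrPull v.symm θ) := by
      intro η
      rw [← mult_comp_equiv (Subgroup.inclusion hQCT) (v.symm.trans u) η (irrPull u.symm θ)]
      congr 1
    -- multiplicities
    have hm : ∀ (χ : IrrCharacter K) (ψ : IrrCharacter T) (ξ : IrrCharacter C) (η : IrrCharacter TC),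
        mult T.subtype χ ψ = 1 →
        (∀ φ : IrrCharacter T, mult (Subgroup.inclusion hQT) φ θ ≠ 0 → φ ≠ ψ →
          mult T.subtype χ φ = 0) →
        mult j η (irrPull v.symm θ) ≠ 0 →
        mult TC.subtype ξ η = 1 → (∀ ξ' : IrrCharacter C, mult TC.subtype ξ' η ≠ 0 → ξ' = ξ) →
        mult C.subtype χ ξ = mult ι ψ η := by
      intro χ ψ ξ η hψ1 hψ0 hη hξ1 hξ0
      have h1 : C.subtype.comp TC.subtype = T.subtype.comp ι := MonoidHom.ext fun _ => rfl
      have h2 : mult (C.subtype.comp TC.subtype) χ η = mult (T.subtype.comp ι) χ η := by rw [h1]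
      rw [mult_comp, mult_comp, Finset.sum_eq_single ξ, hξ1, mul_one,
        Finset.sum_eq_single ψ, hψ1, one_mul] at h2
      · exact h2
      · intro φ _ hne
        by_cases hφ : mult (Subgroup.inclusion hQT) φ θ = 0
        · have h3 : mult ι φ η = 0 := by
            by_contra h0
            have h4 : mult (ι.comp j) φ (irrPull v.symm θ) = 0 := by
              rw [show ι.comp j = N.subtype from MonoidHom.ext fun _ => rfl, ← htrT]
              exact hφ
            rw [mult_comp, Finset.sum_eq_zero_iff] at h4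
            exact Nat.mul_ne_zero_iff.2 ⟨h0, hη⟩ (h4 η (Finset.mem_univ _))
          rw [h3, mul_zero]
        · rw [hψ0 φ hφ hne, zero_mul]
      · exact fun h => absurd (Finset.mem_univ _) h
      · intro ξ' _ hne
        rw [mul_eq_zero]
        exact Or.inr (by_contra fun h0 => hne (hξ0 ξ' h0))
      · exact fun h => absurd (Finset.mem_univ _) h
    -- invariance
    have hψinv : ∀ (χ : IrrCharacter K) (ψ : IrrCharacter T),
        (∀ (a : A) k, (χ : K → ℂ) (a • k) = (χ : K → ℂ) k) →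
        mult (Subgroup.inclusion hQT) ψ θ ≠ 0 → mult T.subtype χ ψ = 1 →
        (∀ φ : IrrCharacter T, mult (Subgroup.inclusion hQT) φ θ ≠ 0 → φ ≠ ψ →
          mult T.subtype χ φ = 0) →
        ∀ (a : A) t, (ψ : T → ℂ) (a • t) = (ψ : T → ℂ) t := by
      intro χ ψ hχ hψ hψ1 hψ0 a
      let σT := MulDistribMulAction.toMulAut A T a
      letI := subAction Q hQinv
      let σQ := MulDistribMulAction.toMulAut A Q a
      have hθσ : irrPull σQ θ = θ := Subtype.ext (funext fun n => hθ a n _ rfl)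
      have hχσ : irrPull (MulDistribMulAction.toMulAut A K a) χ = χ :=
        Subtype.ext (funext fun k => hχ a k)
      have h1 : mult (Subgroup.inclusion hQT) (irrPull σT ψ) θ ≠ 0 := by
        have := mult_irrPull (Subgroup.inclusion hQT) σT σQ (fun _ => rfl) ψ θ
        rw [hθσ] at this
        rwa [this]
      have h2 : mult T.subtype χ (irrPull σT ψ) = 1 := by
        have := mult_irrPull T.subtype (MulDistribMulAction.toMulAut A K a) σT (fun _ => rfl) χ ψ
        rw [hχσ] at this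
        rwa [this]
      intro t
      by_contra hne
      have h3 := hψ0 _ h1 fun h => hne (congrFun (congrArg Subtype.val h) t)
      omega
    refine ⟨fun χ hχ hχθ => ?_, fun χ χ' hχ hχ' hχθ hχθ' ξ hξθ h h' => ?_, fun ξ hξθ => ?_⟩
    · obtain ⟨ψ, hψ, hψ1, hψ0⟩ := clifford_down Q θ T hT hQT χ hχθ
      obtain ⟨η, hη, hsign, hη0⟩ := l2 ψ (hψinv χ ψ hχ hψ hψ1 hψ0) (by rwa [← htrT])
      obtain ⟨ξ, hξθ, hξ1, hξ0⟩ := clifford_up QC (irrPull u.symm θ) TC hTC' hQCT η (by rwa [hjθ])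
      refine ⟨ξ, ?_, by rw [hm χ ψ ξ η hψ1 hψ0 hη hξ1 hξ0]; exact hsign, fun ξ' hξ' hne => ?_⟩
      · intro a c c' hc
        let σC := MulDistribMulAction.toMulAut A C a
        have hTCinv : ∀ (b : A), ∀ s ∈ TC, b • s ∈ TC := fun b s hs => hTinv b _ hs
        letI := subAction TC hTCinv
        have hησ : irrPull (MulDistribMulAction.toMulAut A TC a) η = η :=
          Subtype.ext (funext fun s => l1 η hη a s _ rfl)
        have h1 : mult TC.subtype (irrPull σC ξ) η = 1 := by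
          have := mult_irrPull TC.subtype σC (MulDistribMulAction.toMulAut A TC a) (fun _ => rfl) ξ η
          rw [hησ] at this
          rwa [this]
        have h2 := congrFun (congrArg Subtype.val (hξ0 (irrPull σC ξ) (by rw [h1]; exact one_ne_zero))) c
        rw [← h2]
        exact congrArg (ξ : C → ℂ) (Subtype.ext hc)
      · rw [htr] at hξ'
        obtain ⟨η', hη', hη'1, -⟩ := clifford_down QC (irrPull u.symm θ) TC hTC' hQCT ξ' hξ'
        obtain ⟨ξ'', -, hx1, hx0⟩ := clifford_up QC (irrPull u.symm θ) TC hTC' hQCT η' hη'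
        obtain rfl : ξ' = ξ'' := hx0 ξ' (by rw [hη'1]; exact one_ne_zero)
        rw [hjθ] at hη'
        rw [hm χ ψ ξ' η' hψ1 hψ0 hη' hx1 hx0]
        refine hη0 η' hη' fun he => hne ?_
        subst he
        exact hξ0 ξ' (by rw [hη'1]; exact one_ne_zero)
    · rw [htr] at hξθ
      obtain ⟨η, hη, hη1, -⟩ := clifford_down QC (irrPull u.symm θ) TC hTC' hQCT ξ hξθ
      obtain ⟨ξ'', -, hx1, hx0⟩ := clifford_up QC (irrPull u.symm θ) TC hTC' hQCT η hη
      obtain rfl : ξ = ξ'' := hx0 ξ (by rw [hη1]; exact one_ne_zero)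
      rw [hjθ] at hη
      obtain ⟨ψ, hψ, hψ1, hψ0⟩ := clifford_down Q θ T hT hQT χ hχθ
      obtain ⟨ψ', hψ', hψ1', hψ0'⟩ := clifford_down Q θ T hT hQT χ' hχθ'
      rw [hm χ ψ ξ η hψ1 hψ0 hη hx1 hx0] at h
      rw [hm χ' ψ' ξ η hψ1' hψ0' hη hx1 hx0] at h'
      have heq := l3 ψ ψ' (hψinv χ ψ hχ hψ hψ1 hψ0) (hψinv χ' ψ' hχ' hψ' hψ1' hψ0')
        (by rwa [← htrT]) (by rwa [← htrT]) η hη h h'
      subst heq
      obtain ⟨χ₀, -, -, h0⟩ := clifford_up Q θ T hT hQT ψ hψ
      rw [h0 χ (by rw [hψ1]; exact one_ne_zero), h0 χ' (by rw [hψ1']; exact one_ne_zero)]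
    · rw [htr] at hξθ
      obtain ⟨η, hη, hη1, -⟩ := clifford_down QC (irrPull u.symm θ) TC hTC' hQCT ξ hξθ
      obtain ⟨ξ'', -, hx1, hx0⟩ := clifford_up QC (irrPull u.symm θ) TC hTC' hQCT η hη
      obtain rfl : ξ = ξ'' := hx0 ξ (by rw [hη1]; exact one_ne_zero)
      rw [hjθ] at hη
      obtain ⟨ψ, hψA, hψ, hne⟩ := l4 η hη
      rw [← htrT] at hψ
      obtain ⟨χ, hχθ, hψ1, huniq⟩ := clifford_up Q θ T hT hQT ψ hψ
      obtain ⟨ψ₂, hψ₂, hψ21, hψ20⟩ := clifford_down Q θ T hT hQT χ hχθ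
      obtain rfl : ψ = ψ₂ := by
        by_contra hn
        have := hψ20 ψ hψ hn
        omega
      refine ⟨χ, fun a k => ?_, by rwa [hm χ ψ ξ η hψ1 hψ20 hη hx1 hx0]⟩
      have hψσ : irrPull (MulDistribMulAction.toMulAut A T a) ψ = ψ :=
        Subtype.ext (funext fun t => hψA a t)
      have h1 : mult T.subtype (irrPull (MulDistribMulAction.toMulAut A K a) χ) ψ = 1 := by
        have := mult_irrPull T.subtype (MulDistribMulAction.toMulAut A K a)
          (MulDistribMulAction.toMulAut A T a) (fun _ => rfl) χ ψ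
        rw [hψσ] at this
        rwa [this]
      exact congrFun (congrArg Subtype.val (huniq _ (by rw [h1]; exact one_ne_zero))) k
  refine ⟨fun χ hχ => ?_, fun χ χ' hχ hχ' ξ hξ h h' => ?_, fun ξ hξ => ?_⟩
  · obtain ⟨θ, hθ, hθi⟩ := exists_invariant_below (N := Q) hA hQinv hidx χ hχ
    obtain ⟨ξ, hξ, hsign, hoth⟩ := (hlocal θ hθi).1 χ hχ hθ
    have hoth' : ∀ ξ' : IrrCharacter C,
        (∀ (a : A) (c c' : C), (c' : K) = a • (c : K) → (ξ' : C → ℂ) c' = (ξ' : C → ℂ) c) →
        ξ' ≠ ξ → p ∣ mult C.subtype χ ξ' := by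
      intro ξ' hξ' hne
      by_cases h0 : mult C.subtype χ ξ' = 0
      · rw [h0]; exact dvd_zero p
      · exact hoth ξ' (hover χ ξ' θ hθi hξ' hθ h0) hne
    refine ⟨ξ, hξ, hsign, ?_, hoth'⟩
    -- the degree
    have h1 : Cfsg.charDegree (χ : K → ℂ) =
        ∑ η : IrrCharacter C, mult C.subtype χ η * Cfsg.charDegree (η : C → ℂ) := by
      have h := restrict_eq_sum C.subtype χ (1 : C)
      rw [map_one, ← CfsgLib.Chars.coe_charDegree χ] at h
      simp only [← CfsgLib.Chars.coe_charDegree] at h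
      exact_mod_cast h
    have h2 : (Cfsg.charDegree (χ : K → ℂ) : ZMod p) =
        (mult C.subtype χ ξ : ZMod p) * (Cfsg.charDegree (ξ : C → ℂ) : ZMod p) := by
      rw [h1, Nat.cast_sum]
      haveI := Fintype.ofFinite (fixedPoints A (IrrCharacter C))
      rw [CfsgLib.CharTable.sum_eq_sum_fixedPoints (k := ZMod p) hA]
      · rw [Finset.sum_eq_single (⟨ξ, (mem_fixed_iff ξ).2 fun a c => hξ a c _ rfl⟩ :
          fixedPoints A (IrrCharacter C))]
        · push_cast; rfl
        · intro η _ hne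
          have hd := hoth' η.1 (fun a c c' hc => by
            rw [show c' = a • c from Subtype.ext hc]
            exact (mem_fixed_iff η.1).1 η.2 a c) (fun h => hne (Subtype.ext h))
          rw [Nat.cast_mul, (ZMod.natCast_eq_zero_iff _ p).2 hd, zero_mul]
        · exact fun h => absurd (Finset.mem_univ _) h
      · intro a η
        have hχσ : irrPull (MulDistribMulAction.toMulAut A K a⁻¹) χ = χ :=
          Subtype.ext (funext fun k => hχ a⁻¹ k)
        have h3 := mult_irrPull C.subtype (MulDistribMulAction.toMulAut A K a⁻¹)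
          (MulDistribMulAction.toMulAut A C a⁻¹) (fun _ => rfl) χ η
        rw [hχσ] at h3
        have h4 : Cfsg.charDegree ((a • η : IrrCharacter C) : C → ℂ) = Cfsg.charDegree (η : C → ℂ) := by
          unfold Cfsg.charDegree
          rw [irrAction_apply, smul_one]
        show ((mult C.subtype χ (a • η) * Cfsg.charDegree ((a • η : IrrCharacter C) : C → ℂ) : ℕ) : ZMod p) = _
        rw [h4, show mult C.subtype χ (a • η) = mult C.subtype χ η from h3]
    rcases hsign with hs | hs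
    · exact Or.inl (by rw [h2, hs, one_mul])
    · exact Or.inr (by rw [h2, hs]; ring)
  · obtain ⟨θ, hθ, hθi⟩ := hbelow ξ hξ
    have hne : ∀ {m : ℕ}, ¬ p ∣ m → m ≠ 0 := fun hd h0 => hd (h0 ▸ dvd_zero p)
    exact (hlocal θ hθi).2.1 χ χ' hχ hχ' (hund χ ξ θ (hne h) hθ) (hund χ' ξ θ (hne h') hθ) ξ hθ h h'
  · obtain ⟨θ, hθ, hθi⟩ := hbelow ξ hξ
    exact (hlocal θ hθi).2.2 ξ hθ

end CfsgLib.Glauberman.NormalSylow
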